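import Cfsg.Agent.H182.SpoTab

/-!
# Groups with the same element orders as `L` and a sporadic composition factor: the general part (helper182)

* `Good L n` : `n` is an element order of `L` whose prime divisors are odd and not joined to 2;
* `Str G X` : the structure of `G` relative to the composition factor `X`;
* `dvd_prod` : if `ω(G) = ω(L)` and `X` is the group of a row `x` of the table then every `Good` number divides the
  product of the primes of `x.R`; `prime_dvd` : the primes of the row divide `|L|`.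
-/

set_option autoImplicit false

namespace Cfsg.Agent.H182.Spo

open Subgroup Cfsg.Agent.H94.PG Cfsg.Agent.H94.PG.Sp

/-- `n` is an element order of `L` whose prime divisors are odd and not joined to 2 -/
def Good (L : Type*) [Group L] (n : ℕ) : Prop :=
  (∃ x : L, orderOf x = n) ∧ ∀ p : ℕ, p.Prime → p ∣ n → p ≠ 2 ∧ ¬ ∃ x : L, orderOf x = 2 * p

/-- the structure of a group with an odd prime not joined to 2 and a composition factor `X` -/
def Str (G : Type*) [Group G] (X : Type*) [Group X] : Prop :=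
  ∃ (K : Subgroup G) (_ : K.Normal) (S : Subgroup (G ⧸ K)) (_ : S.Normal), Nonempty (↥S ≃* X) ∧
    ∀ p : ℕ, p.Prime → p ≠ 2 → p ∣ Nat.card G → (¬ ∃ x : G, orderOf x = 2 * p) →
      ∀ k : ℕ, p ^ k ∣ Nat.card G → p ^ k ∣ Nat.card X

theorem Good.congr {L M : Type*} [Group L] [Group M] (e : L ≃* M) {n : ℕ} (h : Good M n) : Good L n := by
  obtain ⟨⟨x, hx⟩, h2⟩ := h
  refine ⟨⟨e.symm x, ?_⟩, fun p hp hd => ⟨(h2 p hp hd).1, ?_⟩⟩
  · rw [← hx]
    exact orderOf_injective e.symm.toMonoidHom e.symm.injective x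
  · rintro ⟨y, hy⟩
    refine (h2 p hp hd).2 ⟨e y, ?_⟩
    rw [← hy]
    exact orderOf_injective e.toMonoidHom e.injective y

/-- the orders of the composition factor are orders of the group -/
theorem exists_of_quot {G : Type*} [Group G] [Finite G] (K : Subgroup G) [K.Normal] (y : G ⧸ K) :
    ∃ g : G, orderOf g = orderOf y := by
  obtain ⟨g, rfl⟩ := QuotientGroup.mk_surjective y
  have h1 : orderOf (QuotientGroup.mk' K g) ∣ orderOf g := orderOf_map_dvd _ _
  have h2 : orderOf (QuotientGroup.mk' K g) = orderOf (g : G ⧸ K) := rfl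
  rw [h2] at h1
  refine ⟨g ^ (orderOf g / orderOf (g : G ⧸ K)), ?_⟩
  exact orderOf_pow_orderOf_div (orderOf_pos g).ne' h1

section

variable {G L X : Type*} [Group G] [Group L] [Group X] [Finite G]

theorem exists_order (h : Set.range (orderOf : G → ℕ) = Set.range (orderOf : L → ℕ)) (hst : Str G X) (x : X) :
    ∃ y : L, orderOf y = orderOf x := by
  obtain ⟨K, hK, S, hS, ⟨e⟩, -⟩ := hst
  obtain ⟨g, hg⟩ := exists_of_quot K ((e.symm x : ↥S) : G ⧸ K)
  have h1 : orderOf ((e.symm x : ↥S) : G ⧸ K) = orderOf x := by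
    rw [Subgroup.orderOf_coe]
    exact orderOf_injective e.symm.toMonoidHom e.symm.injective x
  have h2 : orderOf g ∈ Set.range (orderOf : G → ℕ) := ⟨g, rfl⟩
  rw [h] at h2
  obtain ⟨y, hy⟩ := h2
  exact ⟨y, by rw [hy, hg, h1]⟩

/-- the `Good` numbers are orders of elements of the composition factor -/
theorem Good.exists_order (h : Set.range (orderOf : G → ℕ) = Set.range (orderOf : L → ℕ)) (hst : Str G X) {n : ℕ}
    (hn : Good L n) : ∃ x : X, orderOf x = n := by
  obtain ⟨K, hK, S, hS, ⟨e⟩, hsyl⟩ := hst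
  obtain ⟨⟨y, hy⟩, h2⟩ := hn
  have h3 : n ∈ Set.range (orderOf : L → ℕ) := ⟨y, hy⟩
  rw [← h] at h3
  obtain ⟨g, hg⟩ := h3
  have hn0 : 0 < n := by rw [← hg]; exact orderOf_pos g
  have hcard : Nat.card G = Nat.card K * (Nat.card X * S.index) := by
    have h4 : Nat.card G = Nat.card K * K.index := (Subgroup.card_mul_index K).symm
    have h5 : K.index = Nat.card ↥S * S.index := by
      rw [Subgroup.card_mul_index]
      rfl
    rw [h4, h5, Nat.card_congr e.toEquiv]
  have hG0 : Nat.card G ≠ 0 := Nat.card_pos.ne'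
  -- coprimality
  have hcop : ∀ p : ℕ, p.Prime → p ∣ n → ¬ p ∣ Nat.card K * S.index := by
    intro p hp hpn hd
    have hpG : p ∣ Nat.card G := by
      refine hpn.trans ?_
      rw [← hg]
      exact orderOf_dvd_natCard g
    obtain ⟨hp2, hno⟩ := h2 p hp hpn
    have hno' : ¬ ∃ x : G, orderOf x = 2 * p := by
      rintro ⟨x, hx⟩
      have h4 : 2 * p ∈ Set.range (orderOf : G → ℕ) := ⟨x, hx⟩
      rw [h] at h4
      exact hno h4
    have hX0 : Nat.card X ≠ 0 := by
      intro h0
      rw [hcard, h0] at hG0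
      simp at hG0
    -- the maximal power
    have h5 : p ^ ((Nat.card X).factorization p + 1) ∣ Nat.card G := by
      rw [hcard, show Nat.card K * (Nat.card X * S.index) = Nat.card X * (Nat.card K * S.index) by ring, pow_succ]
      exact mul_dvd_mul (Nat.ordProj_dvd _ _) hd
    have h6 := hsyl p hp hp2 hpG hno' _ h5
    have h7 := (hp.pow_dvd_iff_le_factorization hX0).1 h6
    omega
  have hcopK : n.Coprime (Nat.card K) := Nat.Coprime.symm (Nat.coprime_of_dvd fun p hp h4 h5 =>
    hcop p hp h5 (h4.mul_right _))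
  have hcopS : n.Coprime S.index := Nat.Coprime.symm (Nat.coprime_of_dvd fun p hp h4 h5 =>
    hcop p hp h5 (h4.mul_left _))
  -- the image
  have hord : orderOf (g : G ⧸ K) = n := by
    apply Nat.dvd_antisymm
    · rw [← hg]
      exact orderOf_map_dvd (QuotientGroup.mk' K) g
    · have h4 : g ^ orderOf (g : G ⧸ K) ∈ K := by
        rw [← QuotientGroup.eq_one_iff, QuotientGroup.mk_pow]
        exact pow_orderOf_eq_one _
      have h5 : orderOf (g ^ orderOf (g : G ⧸ K)) ∣ Nat.card K := by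
        have := orderOf_dvd_natCard (⟨_, h4⟩ : ↥K)
        rwa [Subgroup.orderOf_mk] at this
      have h6 : orderOf (g ^ orderOf (g : G ⧸ K)) ∣ n := by
        rw [← hg]
        exact orderOf_pow_dvd _
      have h7 : orderOf (g ^ orderOf (g : G ⧸ K)) = 1 := Nat.dvd_one.1 (by
        have := Nat.dvd_gcd h6 h5
        rwa [hcopK] at this)
      rw [← hg]
      exact orderOf_dvd_of_pow_eq_one (orderOf_eq_one_iff.1 h7)
  have hmem : (g : G ⧸ K) ∈ S := by
    rw [← QuotientGroup.eq_one_iff, ← orderOf_eq_one_iff]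
    apply Nat.dvd_one.1
    have h4 : orderOf (((g : G ⧸ K) : G ⧸ K) : (G ⧸ K) ⧸ S) ∣ n := by
      rw [← hord]
      exact orderOf_map_dvd (QuotientGroup.mk' S) (g : G ⧸ K)
    have h5 : orderOf (((g : G ⧸ K) : G ⧸ K) : (G ⧸ K) ⧸ S) ∣ S.index := orderOf_dvd_natCard _
    have := Nat.dvd_gcd h4 h5
    rwa [hcopS] at this
  refine ⟨e ⟨_, hmem⟩, ?_⟩
  rw [← hord]
  have h8 := orderOf_injective e.toMonoidHom e.injective ⟨_, hmem⟩
  rw [Subgroup.orderOf_mk] at h8
  exact h8

variable [Finite X]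

theorem exists_two_mul {r : ℕ} (h : Nr X r) (h2 : r ≠ 2) : ∃ x : X, orderOf x = 2 * r := by
  rcases h with h | ⟨hr, -, hne, a, b, ha, hb, hab⟩
  · exact absurd h h2
  · refine ⟨a * b, ?_⟩
    rw [hab.orderOf_mul_eq_mul_orderOf_of_coprime, ha, hb, mul_comm]
    rw [ha, hb]
    exact (Nat.coprime_primes hr Nat.prime_two).2 h2

/-- **The `Good` numbers divide the product of the primes of the row.** -/
theorem dvd_prod (h : Set.range (orderOf : G → ℕ) = Set.range (orderOf : L → ℕ)) (hst : Str G X) {x : Row}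
    (hx : x ∈ tab) (hok : OK X x) {n : ℕ} (hn : Good L n) : n ∣ x.R.prod := by
  obtain ⟨y, hy⟩ := hn.exists_order h hst
  have hnX : n ∣ x.N := by
    rw [← hok.1, ← hy]
    exact orderOf_dvd_natCard y
  refine (Nat.dvd_iff_prime_pow_dvd_dvd _ _).2 fun r k hr hk => ?_
  rcases Nat.eq_zero_or_pos k with h0 | h0
  · rw [h0, pow_zero]; exact one_dvd _
  have hrn : r ∣ n := (dvd_pow_self r h0.ne').trans hk
  have hR : r ∈ x.R := by
    by_contra hR
    obtain ⟨hr2, hno⟩ := hn.2 r hr hrn
    obtain ⟨z, hz⟩ := exists_two_mul (hok.2 r hr (hrn.trans hnX) hR) hr2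
    obtain ⟨w, hw⟩ := exists_order h hst z
    exact hno ⟨w, by rw [hw, hz]⟩
  rcases Nat.lt_or_ge k 2 with h1 | h1
  · obtain rfl : k = 1 := by omega
    rw [pow_one]
    exact List.dvd_prod hR
  · exfalso
    have h2 : r * r ∣ x.N := by
      rw [← pow_two]
      exact ((pow_dvd_pow r h1).trans hk).trans hnX
    have h3 := List.all_eq_true.1 (List.all_eq_true.1 tab_sq x hx) r hR
    rw [Bool.not_eq_true', ← Bool.not_eq_true, Nat.beq_eq] at h3
    exact h3 (Nat.mod_eq_zero_of_dvd h2)

theorem prime_dvd (h : Set.range (orderOf : G → ℕ) = Set.range (orderOf : L → ℕ)) [Finite L] (hst : Str G X)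
    {x : Row} (hx : x ∈ tab) (hok : OK X x) {p : ℕ} (hp : p ∈ x.P) : p ∣ Nat.card L := by
  have h1 : p.Prime := of_decide_eq_true (List.all_eq_true.1 (List.all_eq_true.1 tab_prime x hx) p hp)
  have h2 := List.all_eq_true.1 (List.all_eq_true.1 tab_dvd x hx) p hp
  rw [Nat.beq_eq] at h2
  have h3 : p ∣ Nat.card X := by
    rw [hok.1]
    exact Nat.dvd_of_mod_eq_zero h2
  have : Fact p.Prime := ⟨h1⟩
  obtain ⟨y, hy⟩ := exists_prime_orderOf_dvd_card' p h3
  obtain ⟨w, hw⟩ := exists_order h hst y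
  rw [← hy, ← hw]
  exact orderOf_dvd_natCard w

end

end Cfsg.Agent.H182.Spo
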