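import Cfsg.Agent.H94.Sp.AC
import Cfsg.Agent.H403.SporOrd
import Cfsg.Agent.OrdDiv.Table

/-!
# The odd primes not joined to 2 in the sporadic groups (helper182)

* `tab` : names, orders, lists of the primes, lists `R` of the odd primes which are perhaps not joined to 2;
* `spor_row` : a simple group of sporadic order is a sporadic group of the table, and the odd prime divisors outside
  `R` are joined to 2.
-/

set_option autoImplicit false
set_option maxRecDepth 100000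

namespace Cfsg.Agent.H182.Spo

open Cfsg Cfsg.Agent.OrdDiv Cfsg.Agent.H403 Cfsg.Agent.H94.PG Cfsg.Agent.H94.PG.Sp

universe u

/-- a row of the table: name, order, primes, primes perhaps not joined to 2 -/
structure Row where
  g : Grp
  N : ℕ
  P : List ℕ
  R : List ℕ

/-- the table -/
def tab : List Row :=
  [⟨.m11, 7920, [2, 3, 5, 11], [5, 11]⟩,
   ⟨.m12, 95040, [2, 3, 5, 11], [11]⟩,
   ⟨.m22, 443520, [2, 3, 5, 7, 11], [5, 7, 11]⟩,
   ⟨.m23, 10200960, [2, 3, 5, 7, 11, 23], [5, 11, 23]⟩,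
   ⟨.m24, 244823040, [2, 3, 5, 7, 11, 23], [11, 23]⟩,
   ⟨.j1, 175560, [2, 3, 5, 7, 11, 19], [7, 11, 19]⟩,
   ⟨.j2, 604800, [2, 3, 5, 7], [7]⟩,
   ⟨.j3, 50232960, [2, 3, 5, 17, 19], [17, 19]⟩,
   ⟨.j4, 86775571046077562880, [2, 3, 5, 7, 11, 23, 29, 31, 37, 43], [23, 29, 31, 37, 43]⟩,
   ⟨.co1, 4157776806543360000, [2, 3, 5, 7, 11, 13, 23], [23]⟩,
   ⟨.co2, 42305421312000, [2, 3, 5, 7, 11, 23], [11, 23]⟩,
   ⟨.co3, 495766656000, [2, 3, 5, 7, 11, 23], [23]⟩,
   ⟨.fi22, 64561751654400, [2, 3, 5, 7, 11, 13], [13]⟩,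
   ⟨.fi23, 4089470473293004800, [2, 3, 5, 7, 11, 13, 17, 23], [17, 23]⟩,
   ⟨.fi24, 1255205709190661721292800, [2, 3, 5, 7, 11, 13, 17, 23, 29], [17, 23, 29]⟩,
   ⟨.hs, 44352000, [2, 3, 5, 7, 11], [7, 11]⟩,
   ⟨.mcl, 898128000, [2, 3, 5, 7, 11], [11]⟩,
   ⟨.he, 4030387200, [2, 3, 5, 7, 17], [17]⟩,
   ⟨.ru, 145926144000, [2, 3, 5, 7, 13, 29], [29]⟩,
   ⟨.suz, 448345497600, [2, 3, 5, 7, 11, 13], [11, 13]⟩,
   ⟨.on, 460815505920, [2, 3, 5, 7, 11, 19, 31], [11, 19, 31]⟩,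
   ⟨.hn, 273030912000000, [2, 3, 5, 7, 11, 19], [19]⟩,
   ⟨.ly, 51765179004000000, [2, 3, 5, 7, 11, 31, 37, 67], [31, 37, 67]⟩,
   ⟨.th, 90745943887872000, [2, 3, 5, 7, 13, 19, 31], [13, 19, 31]⟩,
   ⟨.b, 4154781481226426191177580544000000, [2, 3, 5, 7, 11, 13, 17, 19, 23, 31, 47], [31, 47]⟩,
   ⟨.m, 808017424794512875886459904961710757005754368000000000, [2, 3, 5, 7, 11, 13, 17, 19, 23, 29, 31, 41, 47, 59, 71], [29, 41, 59, 71]⟩]

/-- the data of a row -/
def OK (S : Type*) [Group S] (x : Row) : Prop :=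
  Nat.card S = x.N ∧ ∀ r : ℕ, r.Prime → r ∣ x.N → r ∉ x.R → Nr S r

theorem spor_row {S : Type u} [Group S] [Finite S] (hk : IsKnownSimple' S) (hna : ¬ ∀ a b : S, a * b = b * a)
    (h : Cfsg.IsSporadic S) : ∃ x ∈ tab, Real x.g S ∧ OK S x := by
  have T : OrderTable.{u} := table
  rcases h with h | h | h | h | h | h | h | h | h | h | h | h | h | h | h | h | h | h | h | h | h | h | h | h | h | h
  · have hr0 : Real .m11 S := real_of_card T hk hna
      (x := (.m11, 7920, [(2, 4), (3, 2), (5, 1), (11, 1)])) (by decide +kernel) h.2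
    exact ⟨⟨.m11, 7920, [2, 3, 5, 11], [5, 11]⟩, by simp [tab], hr0, h.2, fun r hr hd hR => nr_m11' hr0 hr hd hR⟩
  · have hr0 : Real .m12 S := real_of_card T hk hna
      (x := (.m12, 95040, [(2, 6), (3, 3), (5, 1), (11, 1)])) (by decide +kernel) h.2
    exact ⟨⟨.m12, 95040, [2, 3, 5, 11], [11]⟩, by simp [tab], hr0, h.2, fun r hr hd hR => nr_m12' hr0 hr hd hR⟩
  · have hr0 : Real .m22 S := real_of_card T hk hna
      (x := (.m22, 443520, [(2, 7), (3, 2), (5, 1), (7, 1), (11, 1)])) (by decide +kernel) h.2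
    exact ⟨⟨.m22, 443520, [2, 3, 5, 7, 11], [5, 7, 11]⟩, by simp [tab], hr0, h.2, fun r hr hd hR => nr_m22' hr0 hr hd hR⟩
  · have hr0 : Real .m23 S := real_of_card T hk hna
      (x := (.m23, 10200960, [(2, 7), (3, 2), (5, 1), (7, 1), (11, 1), (23, 1)])) (by decide +kernel) h.2
    exact ⟨⟨.m23, 10200960, [2, 3, 5, 7, 11, 23], [5, 11, 23]⟩, by simp [tab], hr0, h.2, fun r hr hd hR => nr_m23' hr0 hr hd hR⟩
  · have hr0 : Real .m24 S := real_of_card T hk hna
      (x := (.m24, 244823040, [(2, 10), (3, 3), (5, 1), (7, 1), (11, 1), (23, 1)])) (by decide +kernel) h.2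
    exact ⟨⟨.m24, 244823040, [2, 3, 5, 7, 11, 23], [11, 23]⟩, by simp [tab], hr0, h.2, fun r hr hd hR => nr_m24' hr0 hr hd hR⟩
  · have hr0 : Real .j1 S := real_of_card T hk hna
      (x := (.j1, 175560, [(2, 3), (3, 1), (5, 1), (7, 1), (11, 1), (19, 1)])) (by decide +kernel) h.2
    exact ⟨⟨.j1, 175560, [2, 3, 5, 7, 11, 19], [7, 11, 19]⟩, by simp [tab], hr0, h.2, fun r hr hd hR => nr_j1 hr0 hr hd hR⟩
  · have hr0 : Real .j2 S := real_of_card T hk hna
      (x := (.j2, 604800, [(2, 7), (3, 3), (5, 2), (7, 1)])) (by decide +kernel) h.2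
    exact ⟨⟨.j2, 604800, [2, 3, 5, 7], [7]⟩, by simp [tab], hr0, h.2, fun r hr hd hR => nr_j2 hr0 hr hd hR⟩
  · have hr0 : Real .j3 S := real_of_card T hk hna
      (x := (.j3, 50232960, [(2, 7), (3, 5), (5, 1), (17, 1), (19, 1)])) (by decide +kernel) h.2
    exact ⟨⟨.j3, 50232960, [2, 3, 5, 17, 19], [17, 19]⟩, by simp [tab], hr0, h.2, fun r hr hd hR => nr_j3 hr0 hr hd hR⟩
  · have hr0 : Real .j4 S := real_of_card T hk hna
      (x := (.j4, 86775571046077562880, [(2, 21), (3, 3), (5, 1), (7, 1), (11, 3), (23, 1), (29, 1), (31, 1), (37, 1), (43, 1)])) (by decide +kernel) h.2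
    exact ⟨⟨.j4, 86775571046077562880, [2, 3, 5, 7, 11, 23, 29, 31, 37, 43], [23, 29, 31, 37, 43]⟩, by simp [tab], hr0, h.2, fun r hr hd hR => nr_j4 hr0 hr hd hR⟩
  · have hr0 : Real .co1 S := real_of_card T hk hna
      (x := (.co1, 4157776806543360000, [(2, 21), (3, 9), (5, 4), (7, 2), (11, 1), (13, 1), (23, 1)])) (by decide +kernel) h.2
    exact ⟨⟨.co1, 4157776806543360000, [2, 3, 5, 7, 11, 13, 23], [23]⟩, by simp [tab], hr0, h.2, fun r hr hd hR => nr_co1 hr0 hr hd hR⟩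
  · have hr0 : Real .co2 S := real_of_card T hk hna
      (x := (.co2, 42305421312000, [(2, 18), (3, 6), (5, 3), (7, 1), (11, 1), (23, 1)])) (by decide +kernel) h.2
    exact ⟨⟨.co2, 42305421312000, [2, 3, 5, 7, 11, 23], [11, 23]⟩, by simp [tab], hr0, h.2, fun r hr hd hR => nr_co2 hr0 hr hd hR⟩
  · have hr0 : Real .co3 S := real_of_card T hk hna
      (x := (.co3, 495766656000, [(2, 10), (3, 7), (5, 3), (7, 1), (11, 1), (23, 1)])) (by decide +kernel) h.2
    exact ⟨⟨.co3, 495766656000, [2, 3, 5, 7, 11, 23], [23]⟩, by simp [tab], hr0, h.2, fun r hr hd hR => nr_co3 hr0 hr hd hR⟩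
  · have hr0 : Real .fi22 S := real_of_card T hk hna
      (x := (.fi22, 64561751654400, [(2, 17), (3, 9), (5, 2), (7, 1), (11, 1), (13, 1)])) (by decide +kernel) h.2
    exact ⟨⟨.fi22, 64561751654400, [2, 3, 5, 7, 11, 13], [13]⟩, by simp [tab], hr0, h.2, fun r hr hd hR => nr_fi22 hr0 hr hd hR⟩
  · have hr0 : Real .fi23 S := real_of_card T hk hna
      (x := (.fi23, 4089470473293004800, [(2, 18), (3, 13), (5, 2), (7, 1), (11, 1), (13, 1), (17, 1), (23, 1)])) (by decide +kernel) h.2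
    exact ⟨⟨.fi23, 4089470473293004800, [2, 3, 5, 7, 11, 13, 17, 23], [17, 23]⟩, by simp [tab], hr0, h.2, fun r hr hd hR => nr_fi23 hr0 hr hd hR⟩
  · have hr0 : Real .fi24 S := real_of_card T hk hna
      (x := (.fi24, 1255205709190661721292800, [(2, 21), (3, 16), (5, 2), (7, 3), (11, 1), (13, 1), (17, 1), (23, 1), (29, 1)])) (by decide +kernel) h.2
    exact ⟨⟨.fi24, 1255205709190661721292800, [2, 3, 5, 7, 11, 13, 17, 23, 29], [17, 23, 29]⟩, by simp [tab], hr0, h.2, fun r hr hd hR => nr_fi24 hr0 hr hd hR⟩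
  · have hr0 : Real .hs S := real_of_card T hk hna
      (x := (.hs, 44352000, [(2, 9), (3, 2), (5, 3), (7, 1), (11, 1)])) (by decide +kernel) h.2
    exact ⟨⟨.hs, 44352000, [2, 3, 5, 7, 11], [7, 11]⟩, by simp [tab], hr0, h.2, fun r hr hd hR => nr_hs hr0 hr hd hR⟩
  · have hr0 : Real .mcl S := real_of_card T hk hna
      (x := (.mcl, 898128000, [(2, 7), (3, 6), (5, 3), (7, 1), (11, 1)])) (by decide +kernel) h.2
    exact ⟨⟨.mcl, 898128000, [2, 3, 5, 7, 11], [11]⟩, by simp [tab], hr0, h.2, fun r hr hd hR => nr_mcl hr0 hr hd hR⟩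
  · have hr0 : Real .he S := real_of_card T hk hna
      (x := (.he, 4030387200, [(2, 10), (3, 3), (5, 2), (7, 3), (17, 1)])) (by decide +kernel) h.2
    exact ⟨⟨.he, 4030387200, [2, 3, 5, 7, 17], [17]⟩, by simp [tab], hr0, h.2, fun r hr hd hR => nr_he hr0 hr hd hR⟩
  · have hr0 : Real .ru S := real_of_card T hk hna
      (x := (.ru, 145926144000, [(2, 14), (3, 3), (5, 3), (7, 1), (13, 1), (29, 1)])) (by decide +kernel) h.2
    exact ⟨⟨.ru, 145926144000, [2, 3, 5, 7, 13, 29], [29]⟩, by simp [tab], hr0, h.2, fun r hr hd hR => nr_ru hr0 hr hd hR⟩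
  · have hr0 : Real .suz S := real_of_card T hk hna
      (x := (.suz, 448345497600, [(2, 13), (3, 7), (5, 2), (7, 1), (11, 1), (13, 1)])) (by decide +kernel) h.2
    exact ⟨⟨.suz, 448345497600, [2, 3, 5, 7, 11, 13], [11, 13]⟩, by simp [tab], hr0, h.2, fun r hr hd hR => nr_suz hr0 hr hd hR⟩
  · have hr0 : Real .on S := real_of_card T hk hna
      (x := (.on, 460815505920, [(2, 9), (3, 4), (5, 1), (7, 3), (11, 1), (19, 1), (31, 1)])) (by decide +kernel) h.2
    exact ⟨⟨.on, 460815505920, [2, 3, 5, 7, 11, 19, 31], [11, 19, 31]⟩, by simp [tab], hr0, h.2, fun r hr hd hR => nr_on hr0 hr hd hR⟩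
  · have hr0 : Real .hn S := real_of_card T hk hna
      (x := (.hn, 273030912000000, [(2, 14), (3, 6), (5, 6), (7, 1), (11, 1), (19, 1)])) (by decide +kernel) h.2
    exact ⟨⟨.hn, 273030912000000, [2, 3, 5, 7, 11, 19], [19]⟩, by simp [tab], hr0, h.2, fun r hr hd hR => nr_hn hr0 hr hd hR⟩
  · have hr0 : Real .ly S := real_of_card T hk hna
      (x := (.ly, 51765179004000000, [(2, 8), (3, 7), (5, 6), (7, 1), (11, 1), (31, 1), (37, 1), (67, 1)])) (by decide +kernel) h.2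
    exact ⟨⟨.ly, 51765179004000000, [2, 3, 5, 7, 11, 31, 37, 67], [31, 37, 67]⟩, by simp [tab], hr0, h.2, fun r hr hd hR => nr_ly hr0 hr hd hR⟩
  · have hr0 : Real .th S := real_of_card T hk hna
      (x := (.th, 90745943887872000, [(2, 15), (3, 10), (5, 3), (7, 2), (13, 1), (19, 1), (31, 1)])) (by decide +kernel) h.2
    exact ⟨⟨.th, 90745943887872000, [2, 3, 5, 7, 13, 19, 31], [13, 19, 31]⟩, by simp [tab], hr0, h.2, fun r hr hd hR => nr_th hr0 hr hd hR⟩
  · have hr0 : Real .b S := real_of_card T hk hna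
      (x := (.b, 4154781481226426191177580544000000, [(2, 41), (3, 13), (5, 6), (7, 2), (11, 1), (13, 1), (17, 1), (19, 1), (23, 1), (31, 1), (47, 1)])) (by decide +kernel) h.2
    exact ⟨⟨.b, 4154781481226426191177580544000000, [2, 3, 5, 7, 11, 13, 17, 19, 23, 31, 47], [31, 47]⟩, by simp [tab], hr0, h.2, fun r hr hd hR => nr_b hr0 hr hd hR⟩
  · have hr0 : Real .m S := real_of_card T hk hna
      (x := (.m, 808017424794512875886459904961710757005754368000000000, [(2, 46), (3, 20), (5, 9), (7, 6), (11, 2), (13, 3), (17, 1), (19, 1), (23, 1), (29, 1), (31, 1), (41, 1), (47, 1), (59, 1), (71, 1)])) (by decide +kernel) h.2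
    exact ⟨⟨.m, 808017424794512875886459904961710757005754368000000000, [2, 3, 5, 7, 11, 13, 17, 19, 23, 29, 31, 41, 47, 59, 71], [29, 41, 59, 71]⟩, by simp [tab], hr0, h.2, fun r hr hd hR => nr_m hr0 hr hd hR⟩

theorem tab_prime : tab.all (fun x => x.P.all fun p => decide (p.Prime)) = true := by decide +kernel

theorem tab_dvd : tab.all (fun x => x.P.all fun p => Nat.beq (x.N % p) 0) = true := by decide +kernel

theorem tab_sub : tab.all (fun x => x.R.all fun p => x.P.contains p) = true := by decide +kernel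

theorem tab_nodup : tab.all (fun x => decide x.R.Nodup) = true := by decide +kernel

theorem tab_sq : tab.all (fun x => x.R.all fun p => !(Nat.beq (x.N % (p * p)) 0)) = true := by decide +kernel

theorem tab_odd : tab.all (fun x => !(x.R.contains 2)) = true := by decide +kernel

theorem tab_pow : tab.all (fun x => Nat.beq (x.P.prod ^ 50 % x.N) 0) = true := by decide +kernel

end Cfsg.Agent.H182.Spo
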